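import Cfsg.Agent.H350.ShapeModel

/-!
The homomorphism from the Heisenberg group attached to three elements.
-/

set_option autoImplicit false

namespace Cfsg.Agent.H350.Shape

open Matrix

variable {X : Type*} [Group X]

/-- exponents modulo three -/
theorem pw_mod {x : X} (h : x ^ 3 = 1) (n : ℕ) : x ^ (n % 3) = x ^ n := by
  conv_rhs => rw [← Nat.div_add_mod n 3, pow_add, pow_mul, h, one_pow, one_mul]

theorem pw_add {x : X} (h : x ^ 3 = 1) (a b : ZMod 3) :
    x ^ (a + b).val = x ^ a.val * x ^ b.val := by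
  rw [ZMod.val_add, pw_mod h, pow_add]

theorem pw_mul {x : X} (h : x ^ 3 = 1) (a b : ZMod 3) :
    x ^ (a * b).val = x ^ (a.val * b.val) := by
  rw [ZMod.val_mul, pw_mod h]

theorem pw_zero (x : X) : x ^ (0 : ZMod 3).val = 1 := by simp

theorem pw_one (x : X) : x ^ (1 : ZMod 3).val = x := by
  have : (1 : ZMod 3).val = 1 := rfl
  rw [this, pow_one]

theorem pw_neg {x : X} (h : x ^ 3 = 1) (a : ZMod 3) : x ^ (-a).val = (x ^ a.val)⁻¹ := by
  rw [eq_inv_iff_mul_eq_one, ← pw_add h, neg_add_cancel, pw_zero]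

theorem pw_neg_one {x : X} (h : x ^ 3 = 1) : x ^ (-1 : ZMod 3).val = x⁻¹ := by
  rw [pw_neg h, pw_one]

theorem pw_sub {x : X} (h : x ^ 3 = 1) (a b : ZMod 3) :
    x ^ (a - b).val = x ^ a.val * (x ^ b.val)⁻¹ := by
  rw [sub_eq_add_neg, pw_add h, pw_neg h]

/-- three elements generating a Heisenberg group -/
structure Frame (x y z : X) : Prop where
  x3 : x ^ 3 = 1
  y3 : y ^ 3 = 1
  z3 : z ^ 3 = 1
  yx : y * x = x * y * z⁻¹
  xz : Commute x z
  yz : Commute y z
  z1 : z ≠ 1

variable {x y z : X}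

namespace Frame

theorem comm_pow (F : Frame x y z) (m n : ℕ) :
    y ^ m * x ^ n = x ^ n * y ^ m * (z ^ (m * n))⁻¹ := by
  have h1 : ∀ n : ℕ, y * x ^ n = x ^ n * y * (z ^ n)⁻¹ := by
    intro n
    induction n with
    | zero => simp
    | succ k ih =>
      have hc : Commute x (z ^ k) := F.xz.pow_right k
      calc y * x ^ (k + 1) = (y * x ^ k) * x := by rw [pow_succ, mul_assoc]
        _ = x ^ k * y * ((z ^ k)⁻¹ * x) := by rw [ih, mul_assoc]
        _ = x ^ k * y * (x * (z ^ k)⁻¹) := by rw [(hc.inv_right).eq]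
        _ = x ^ k * (y * x) * (z ^ k)⁻¹ := by simp only [mul_assoc]
        _ = x ^ k * (x * y * z⁻¹) * (z ^ k)⁻¹ := by rw [F.yx]
        _ = x ^ (k + 1) * y * (z ^ (k + 1))⁻¹ := by
            rw [pow_succ, pow_succ, _root_.mul_inv_rev]; simp only [mul_assoc]
  induction m with
  | zero => simp
  | succ k ih =>
    have hc : Commute y (z ^ n) := F.yz.pow_right n
    calc y ^ (k + 1) * x ^ n = y ^ k * (y * x ^ n) := by rw [pow_succ, mul_assoc]
      _ = y ^ k * x ^ n * (y * (z ^ n)⁻¹) := by rw [h1]; simp only [mul_assoc]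
      _ = x ^ n * y ^ k * ((z ^ (k * n))⁻¹ * y) * (z ^ n)⁻¹ := by rw [ih]; simp only [mul_assoc]
      _ = x ^ n * y ^ k * (y * (z ^ (k * n))⁻¹) * (z ^ n)⁻¹ := by
          rw [((F.yz.pow_right (k * n)).inv_right).eq]
      _ = x ^ n * y ^ (k + 1) * (z ^ ((k + 1) * n))⁻¹ := by
          have e : z ^ ((k + 1) * n) = z ^ n * z ^ (k * n) := by
            rw [← pow_add]; congr 1; ring
          rw [e, _root_.mul_inv_rev, pow_succ]; simp only [mul_assoc]

theorem comm_pw (F : Frame x y z) (b c : ZMod 3) :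
    y ^ b.val * x ^ c.val = x ^ c.val * y ^ b.val * z ^ (-(b * c)).val := by
  rw [pw_neg F.z3, pw_mul F.z3, F.comm_pow]

/-- the underlying function -/
def fn (x y z : X) (h : Heis) : X := x ^ h.a.val * y ^ h.b.val * z ^ (h.k + h.a * h.b).val

theorem fn_mul (F : Frame x y z) (g h : Heis) : fn x y z (g * h) = fn x y z g * fn x y z h := by
  have cz : ∀ (u v : ZMod 3), z ^ u.val * x ^ v.val = x ^ v.val * z ^ u.val := fun u v =>
    ((F.xz.pow_pow v.val u.val).eq).symm
  have cy : ∀ (u v : ZMod 3), z ^ u.val * y ^ v.val = y ^ v.val * z ^ u.val := fun u v =>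
    ((F.yz.pow_pow v.val u.val).eq).symm
  have hR : fn x y z g * fn x y z h = x ^ g.a.val * x ^ h.a.val * (y ^ g.b.val * y ^ h.b.val) *
      (z ^ (-(g.b * h.a)).val * z ^ (g.k + g.a * g.b).val * z ^ (h.k + h.a * h.b).val) := by
    unfold fn
    calc x ^ g.a.val * y ^ g.b.val * z ^ (g.k + g.a * g.b).val *
          (x ^ h.a.val * y ^ h.b.val * z ^ (h.k + h.a * h.b).val)
        = x ^ g.a.val * y ^ g.b.val * (z ^ (g.k + g.a * g.b).val * x ^ h.a.val) * y ^ h.b.val *
            z ^ (h.k + h.a * h.b).val := by simp only [mul_assoc]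
      _ = x ^ g.a.val * (y ^ g.b.val * x ^ h.a.val) * (z ^ (g.k + g.a * g.b).val * y ^ h.b.val) *
            z ^ (h.k + h.a * h.b).val := by rw [cz]; simp only [mul_assoc]
      _ = x ^ g.a.val * x ^ h.a.val * y ^ g.b.val * (z ^ (-(g.b * h.a)).val * y ^ h.b.val) *
            z ^ (g.k + g.a * g.b).val * z ^ (h.k + h.a * h.b).val := by
          rw [F.comm_pw, cy]; simp only [mul_assoc]
      _ = _ := by rw [cy]; simp only [mul_assoc]
  rw [hR]
  unfold fn
  rw [mul_a, mul_b, pw_add F.x3, pw_add F.y3, ← pw_add F.z3, ← pw_add F.z3]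
  congr 3
  simp only [mul_k]
  have h3 : (3 : ZMod 3) = 0 := by decide
  linear_combination (g.b * h.a) * h3

/-- the homomorphism from the Heisenberg group -/
def hom (F : Frame x y z) : Heis →* X := MonoidHom.mk' (fn x y z) F.fn_mul

theorem hom_apply (F : Frame x y z) (h : Heis) :
    F.hom h = x ^ h.a.val * y ^ h.b.val * z ^ (h.k + h.a * h.b).val := rfl

theorem hom_x (F : Frame x y z) : F.hom ⟨1, 0, 0⟩ = x := by
  rw [hom_apply]; simp [pw_one]

theorem hom_y (F : Frame x y z) : F.hom ⟨0, 1, 0⟩ = y := by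
  rw [hom_apply]; simp [pw_one]

theorem hom_z (F : Frame x y z) (k : ZMod 3) : F.hom ⟨0, 0, k⟩ = z ^ k.val := by
  rw [hom_apply]; simp

theorem pw_eq_one {w : X} (h3 : w ^ 3 = 1) (h1 : w ≠ 1) {k : ZMod 3} (h : w ^ k.val = 1) : k = 0 := by
  have h2 : ∀ k : ZMod 3, k = 0 ∨ k = 1 ∨ k = 2 := by decide
  rcases h2 k with rfl | rfl | rfl
  · rfl
  · rw [pw_one] at h; exact absurd h h1
  · have e : (2 : ZMod 3).val = 2 := rfl
    rw [e] at h
    exfalso
    apply h1
    calc w = w ^ 3 * (w ^ 2)⁻¹ := by group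
      _ = 1 := by rw [h3, h]; simp

theorem hom_injective (F : Frame x y z) : Function.Injective F.hom := by
  rw [injective_iff_map_eq_one]
  intro h hh
  rw [hom_apply] at hh
  have hb : h.b = 0 := by
    -- commutes with x
    have h1 : y ^ h.b.val * x ^ (1 : ZMod 3).val = x ^ (1 : ZMod 3).val * y ^ h.b.val := by
      have e : y ^ h.b.val = (x ^ h.a.val)⁻¹ * (z ^ (h.k + h.a * h.b).val)⁻¹ := by
        rw [eq_mul_inv_iff_mul_eq]
        exact eq_inv_of_mul_eq_one_right (by rw [← mul_assoc]; exact hh)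
      have c1 : Commute (x ^ (1 : ZMod 3).val) ((x ^ h.a.val)⁻¹) :=
        ((Commute.refl x).pow_pow _ _).inv_right
      have c2 : Commute (x ^ (1 : ZMod 3).val) ((z ^ (h.k + h.a * h.b).val)⁻¹) :=
        (F.xz.pow_pow _ _).inv_right
      rw [e]
      exact ((c1.mul_right c2).eq).symm
    rw [F.comm_pw] at h1
    have h2 : z ^ (-(h.b * 1)).val = 1 := by
      have := mul_left_cancel (h1.trans (mul_one _).symm)
      exact this
    have h3 := pw_eq_one F.z3 F.z1 h2
    simpa using h3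
  have ha : h.a = 0 := by
    have h1 : y ^ (1 : ZMod 3).val * x ^ h.a.val = x ^ h.a.val * y ^ (1 : ZMod 3).val := by
      have e : x ^ h.a.val = (z ^ (h.k + h.a * h.b).val)⁻¹ * (y ^ h.b.val)⁻¹ := by
        rw [eq_mul_inv_iff_mul_eq, eq_inv_iff_mul_eq_one, hh]
      have c1 : Commute (y ^ (1 : ZMod 3).val) ((y ^ h.b.val)⁻¹) :=
        ((Commute.refl y).pow_pow _ _).inv_right
      have c2 : Commute (y ^ (1 : ZMod 3).val) ((z ^ (h.k + h.a * h.b).val)⁻¹) :=
        (F.yz.pow_pow _ _).inv_right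
      rw [e]
      exact (c2.mul_right c1).eq
    rw [F.comm_pw] at h1
    have h2 : z ^ (-(1 * h.a)).val = 1 := by
      have := mul_left_cancel (h1.trans (mul_one _).symm)
      exact this
    have h3 := pw_eq_one F.z3 F.z1 h2
    simpa using h3
  have hk : h.k = 0 := by
    rw [ha, hb, pw_zero, pw_zero, one_mul, one_mul, mul_zero, add_zero] at hh
    exact pw_eq_one F.z3 F.z1 hh
  ext
  · exact ha
  · exact hb
  · exact hk

end Frame

end Cfsg.Agent.H350.Shape
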