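import Cfsg.Agent.H350.ShapeX

/-!
The isomorphism with the model.
-/

set_option autoImplicit false

namespace Cfsg.Agent.H350.Shape

open Matrix Subgroup Hyp

variable {X : Type*} [Group X]

namespace Hyp.Adapted

variable {R : Subgroup X} {π : X →* SpecialLinearGroup (Fin 2) (ZMod 3)} {x y z t : X}

theorem exists_mat [Finite X] (H : Hyp X R π) (A : Adapted R π x y z t) {g : X} (hg : Commute t g) :
    ∃ S : SpecialLinearGroup (Fin 2) (ZMod 3), ∀ h : Heis,
      g * A.toFrame.hom h * g⁻¹ = A.toFrame.hom (act S h) := by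
  have hn := H.norm
  obtain ⟨⟨a, c, k1⟩, h1⟩ := H.hom_surj A.toFrame A.xR A.yR A.zR (hn.conj_mem x A.xR g)
  obtain ⟨⟨b, d, k2⟩, h2⟩ := H.hom_surj A.toFrame A.xR A.yR A.zR (hn.conj_mem y A.yR g)
  obtain ⟨hdet, hc⟩ := A.toFrame.conj_hom (A.zc g) h1.symm h2.symm
  have key : ∀ w : X, t * w * t⁻¹ = w⁻¹ → t * (g * w * g⁻¹) * t⁻¹ = (g * w * g⁻¹)⁻¹ := by
    intro w hw
    have e : t * (g * w * g⁻¹) * t⁻¹ = g * (t * w * t⁻¹) * g⁻¹ := by
      have h3 : t * g = g * t := hg
      calc t * (g * w * g⁻¹) * t⁻¹ = (t * g) * w * (t * g)⁻¹ := by group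
        _ = (g * t) * w * (g * t)⁻¹ := by rw [h3]
        _ = _ := by group
    rw [e, hw]; group
  have kk : ∀ k : ZMod 3, k = -k → k = 0 := by decide
  have hk1 : k1 = 0 := by
    have := key x A.tx
    rw [← h1, A.t_hom, ← map_inv] at this
    exact kk _ (congrArg Heis.k (A.toFrame.hom_injective this))
  have hk2 : k2 = 0 := by
    have := key y A.ty
    rw [← h2, A.t_hom, ← map_inv] at this
    exact kk _ (congrArg Heis.k (A.toFrame.hom_injective this))
  subst hk1 hk2
  refine ⟨⟨!![a, b; c, d], by rw [Matrix.det_fin_two_of]; exact hdet⟩, fun h => ?_⟩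
  rw [hc]
  congr 1
  ext
  · rfl
  · rfl
  · show h.k + h.a * 0 + h.b * 0 = h.k
    ring

theorem act_inj {S T : SpecialLinearGroup (Fin 2) (ZMod 3)} (h : ∀ g : Heis, act S g = act T g) :
    S = T := by
  have h1 := h ⟨1, 0, 0⟩
  have h2 := h ⟨0, 1, 0⟩
  simp only [act_apply, actFun] at h1 h2
  have a1 := congrArg Heis.a h1
  have a2 := congrArg Heis.b h1
  have a3 := congrArg Heis.a h2
  have a4 := congrArg Heis.b h2
  simp only [mul_one, mul_zero, add_zero, zero_add] at a1 a2 a3 a4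
  exact ext_entry S T a1 a3 a2 a4

/-- the centralizer of `t` acts through `SL(2,3)` -/
theorem exists_lam [Finite X] (H : Hyp X R π) (A : Adapted R π x y z t) :
    ∃ Λ : centralizer ({t} : Set X) →* SpecialLinearGroup (Fin 2) (ZMod 3),
      ∀ (g : centralizer ({t} : Set X)) (h : Heis),
        (g : X) * A.toFrame.hom h * (g : X)⁻¹ = A.toFrame.hom (act (Λ g) h) := by
  have hcomm : ∀ g : centralizer ({t} : Set X), Commute t (g : X) := by
    intro g
    exact mem_centralizer_singleton_iff.mp g.2 |>.symm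
  choose f hf using fun g : centralizer ({t} : Set X) => A.exists_mat H (hcomm g)
  refine ⟨MonoidHom.mk' f ?_, hf⟩
  intro g g'
  apply act_inj
  intro h
  apply A.toFrame.hom_injective
  rw [← hf, map_mul, MulAut.mul_apply, ← hf, ← hf]
  push_cast
  group

theorem lam_ker [Finite X] (H : Hyp X R π) (A : Adapted R π x y z t)
    {Λ : centralizer ({t} : Set X) →* SpecialLinearGroup (Fin 2) (ZMod 3)}
    (hΛ : ∀ (g : centralizer ({t} : Set X)) (h : Heis),
        (g : X) * A.toFrame.hom h * (g : X)⁻¹ = A.toFrame.hom (act (Λ g) h))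
    {g : centralizer ({t} : Set X)} (hg : Λ g = 1) : (g : X) ∈ zpowers z := by
  have h1 : (g : X) ∈ centralizer (R : Set X) := by
    rw [mem_centralizer_iff]
    intro r hr
    obtain ⟨h, rfl⟩ := H.hom_surj A.toFrame A.xR A.yR A.zR hr
    have := hΛ g h
    rw [hg, map_one, MulAut.one_apply] at this
    exact (mul_inv_eq_iff_eq_mul.mp this).symm
  obtain ⟨h, hh⟩ := H.hom_surj A.toFrame A.xR A.yR A.zR (H.cent_le h1)
  have hc : Commute t (g : X) := mem_centralizer_singleton_iff.mp g.2 |>.symm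
  rw [← hh] at hc ⊢
  obtain ⟨ha, hb⟩ := A.t_comm hc
  have : h = ⟨0, 0, h.k⟩ := by ext; exact ha; exact hb; rfl
  rw [this, A.toFrame.hom_z]
  exact pow_mem (mem_zpowers z) _

theorem card_cent [Finite X] (H : Hyp X R π) (A : Adapted R π x y z t) :
    Nat.card (centralizer ({t} : Set X)) = 72 := by
  set C := centralizer ({t} : Set X) with hC
  have h1 : R.relIndex C = 24 := by
    have hk : π.ker = R := by
      ext g; rw [MonoidHom.mem_ker, H.ker]
    rw [← hk, relIndex_ker]
    have h2 : C.map π = ⊤ := by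
      rw [eq_top_iff]
      intro s _
      obtain ⟨g, rfl⟩ := H.surj s
      obtain ⟨r, hr, -, h3⟩ := exists_fix H A g
      refine ⟨g * r ^ 2, ?_, ?_⟩
      · show g * r ^ 2 ∈ centralizer ({t} : Set X)
        rw [mem_centralizer_singleton_iff]
        exact h3.eq.symm
      · rw [map_mul, (H.ker _).2 (R.pow_mem hr 2), mul_one]
    rw [h2, ← card_sl]
    exact Nat.card_congr Subgroup.topEquiv.toEquiv
  have h2 : Nat.card ↥(R ⊓ C) = 3 := by
    have h3 : R ⊓ C = zpowers z := by
      apply le_antisymm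
      · intro r hr
        obtain ⟨hr1, hr2⟩ := mem_inf.1 hr
        obtain ⟨h, rfl⟩ := H.hom_surj A.toFrame A.xR A.yR A.zR hr1
        rw [hC, mem_centralizer_singleton_iff] at hr2
        obtain ⟨ha, hb⟩ := A.t_comm hr2.symm
        have : h = ⟨0, 0, h.k⟩ := by ext; exact ha; exact hb; rfl
        rw [this, A.toFrame.hom_z]
        exact pow_mem (mem_zpowers z) _
      · rw [zpowers_le, mem_inf]
        refine ⟨A.zR, ?_⟩
        rw [hC, mem_centralizer_singleton_iff]
        exact (A.zc t).eq.symm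
    rw [h3, Nat.card_zpowers]
    exact orderOf_eq_prime A.z3 A.z1
  have h3 := card_mul_rel (inf_le_right : R ⊓ C ≤ C)
  rw [inf_relIndex_right, h1, h2] at h3
  omega

/-- the complement -/
theorem exists_compl [Finite X] (H : Hyp X R π) (A : Adapted R π x y z t)
    (hE : ∃ E : Subgroup X, IsMulCommutative E ∧ (∀ a ∈ E, a ^ 3 = 1) ∧ Nat.card E = 27) :
    ∃ L : Subgroup (centralizer ({t} : Set X)),
      Nat.card L = 24 ∧ ∀ g ∈ L, (g : X) ∈ zpowers z → g = 1 := by
  obtain ⟨s, hsR, hs3, hst⟩ := A.exists_s H hE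
  set C := centralizer ({t} : Set X) with hC
  have hCc := A.card_cent H
  have hzC : z ∈ C := by
    rw [hC, mem_centralizer_singleton_iff]
    exact (A.zc t).eq.symm
  have hsC : s ∈ C := by
    rw [hC, mem_centralizer_singleton_iff]
    exact hst.eq.symm
  let z' : C := ⟨z, hzC⟩
  let s' : C := ⟨s, hsC⟩
  have hz' : ∀ g : C, Commute g z' := fun g => Subtype.ext (A.zc g).eq
  have hKn : (zpowers z').Normal := by
    constructor
    intro n hn g
    obtain ⟨k, rfl⟩ := mem_zpowers_iff.mp hn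
    have : g * z' ^ k * g⁻¹ = z' ^ k := by
      rw [((hz' g).zpow_right k).eq, mul_inv_cancel_right]
    rw [this]
    exact hn
  have hKc : Nat.card (zpowers z') = 3 := by
    rw [Nat.card_zpowers]
    apply orderOf_eq_prime
    · exact Subtype.ext A.z3
    · intro h
      exact A.z1 (congrArg Subtype.val h)
  have hs1 : s' ≠ 1 := by
    intro h
    apply hsR
    have : s = 1 := congrArg Subtype.val h
    rw [this]; exact R.one_mem
  have hAc : Nat.card (zpowers s') = 3 := by
    rw [Nat.card_zpowers]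
    exact orderOf_eq_prime (Subtype.ext hs3) hs1
  have hAK : zpowers s' ⊓ zpowers z' = ⊥ := by
    rw [eq_bot_iff]
    intro w hw
    obtain ⟨h1, h2⟩ := mem_inf.1 hw
    by_contra hw1
    rw [mem_bot] at hw1
    -- w generates both
    have h3 : zpowers w = zpowers s' := by
      have hle : zpowers w ≤ zpowers s' := by rwa [zpowers_le]
      have h4 : Nat.card (zpowers w) ∣ Nat.card (zpowers s') := Subgroup.card_dvd_of_le hle
      rw [hAc, Nat.dvd_prime Nat.prime_three, Nat.card_zpowers, orderOf_eq_one_iff] at h4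
      rcases h4 with h4 | h4
      · exact absurd h4 hw1
      · exact Subgroup.eq_of_le_of_card_ge hle (by rw [hAc, Nat.card_zpowers, h4])
    have h4 : s' ∈ zpowers z' := by
      have h5 : zpowers w ≤ zpowers z' := by rwa [zpowers_le]
      rw [h3, zpowers_le] at h5
      exact h5
    obtain ⟨k, hk⟩ := mem_zpowers_iff.mp h4
    apply hsR
    have h5 : s = z ^ k := by
      have := congrArg Subtype.val hk
      rw [SubgroupClass.coe_zpow] at this
      exact this.symm
    rw [h5]
    exact R.zpow_mem A.zR k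
  have hKcomm : IsMulCommutative (zpowers z') := inferInstance
  have hU : Nat.card ↥(zpowers z' ⊔ zpowers s') = 9 := by
    have h1 := card_mul_rel (le_sup_left : zpowers z' ≤ zpowers z' ⊔ zpowers s')
    rw [relIndex_sup_left, hKc] at h1
    have h2 := card_mul_rel (inf_le_right : zpowers z' ⊓ zpowers s' ≤ zpowers s')
    rw [inf_relIndex_right, inf_comm, hAK, hAc, Subgroup.card_bot] at h2
    omega
  have hidx : (zpowers z' ⊔ zpowers s').index = 8 := by
    have h1 := Subgroup.card_mul_index (zpowers z' ⊔ zpowers s')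
    rw [hU, hCc] at h1
    omega
  obtain ⟨L, hL⟩ := Cfsg.Agent.S0051.result (zpowers z') (zpowers z' ⊔ zpowers s') le_sup_left
    (by rw [hKc, hidx]; norm_num) (zpowers s') le_sup_right hAK rfl
  refine ⟨L, ?_, ?_⟩
  · have h1 := hL.card_mul_card
    rw [hKc, hCc] at h1
    omega
  · intro g hg hgz
    have h1 : g ∈ zpowers z' := by
      obtain ⟨k, hk⟩ := mem_zpowers_iff.mp hgz
      rw [mem_zpowers_iff]
      refine ⟨k, Subtype.ext ?_⟩
      rw [SubgroupClass.coe_zpow]
      exact hk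
    have h2 := hL.disjoint
    exact Subgroup.disjoint_def.1 h2 h1 hg

end Hyp.Adapted

/-- **The uniqueness theorem.** -/
theorem Hyp.model_iso [Finite X] {R : Subgroup X} {π : X →* SpecialLinearGroup (Fin 2) (ZMod 3)}
    (H : Hyp X R π)
    (hE : ∃ E : Subgroup X, IsMulCommutative E ∧ (∀ a ∈ E, a ^ 3 = 1) ∧ Nat.card E = 27) :
    Nonempty (Model ≃* X) := by
  obtain ⟨x, y, z, t, A⟩ := H.exists_adapted
  obtain ⟨Λ, hΛ⟩ := A.exists_lam H
  obtain ⟨L, hL24, hLz⟩ := A.exists_compl H hE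
  have hinj : Function.Injective (Λ.comp L.subtype) := by
    rw [injective_iff_map_eq_one]
    intro g hg
    have h1 := A.lam_ker H hΛ (g := (g : centralizer ({t} : Set X))) hg
    exact Subtype.ext (hLz _ g.2 h1)
  have hbij : Function.Bijective (Λ.comp L.subtype) := by
    have : Finite L := inferInstance
    rw [Nat.bijective_iff_injective_and_card]
    exact ⟨hinj, by rw [hL24, card_sl]⟩
  let e₂ : L ≃* SpecialLinearGroup (Fin 2) (ZMod 3) := MulEquiv.ofBijective _ hbij
  let f₂ : SpecialLinearGroup (Fin 2) (ZMod 3) →* X :=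
    ((centralizer ({t} : Set X)).subtype.comp L.subtype).comp e₂.symm.toMonoidHom
  have hcompat : ∀ g : SpecialLinearGroup (Fin 2) (ZMod 3),
      A.toFrame.hom.comp (act g).toMonoidHom = (MulAut.conj (f₂ g)).toMonoidHom.comp A.toFrame.hom := by
    intro g
    ext h
    show A.toFrame.hom (act g h) = f₂ g * A.toFrame.hom h * (f₂ g)⁻¹
    have h1 := hΛ (e₂.symm g : L) h
    have h2 : Λ (e₂.symm g : L) = g := e₂.apply_symm_apply g
    rw [h2] at h1
    exact h1.symm
  let Φ : Model →* X := SemidirectProduct.lift A.toFrame.hom f₂ hcompat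
  have hΦinj : Function.Injective Φ := by
    rw [injective_iff_map_eq_one]
    rintro ⟨h, g⟩ hg
    have h1 : A.toFrame.hom h * f₂ g = 1 := by
      have : Φ ⟨h, g⟩ = A.toFrame.hom h * f₂ g := by
        rw [← SemidirectProduct.inl_left_mul_inr_right ⟨h, g⟩, map_mul]
        simp [Φ]
      rw [← this]; exact hg
    have h2 : f₂ g ∈ R := by
      have : f₂ g = (A.toFrame.hom h)⁻¹ := eq_inv_of_mul_eq_one_right h1
      rw [this]
      exact R.inv_mem (hom_mem A.toFrame A.xR A.yR A.zR h)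
    have h3 : f₂ g ∈ zpowers z := by
      obtain ⟨h', hh'⟩ := H.hom_surj A.toFrame A.xR A.yR A.zR h2
      have hc : Commute t (f₂ g) :=
        (mem_centralizer_singleton_iff.mp (e₂.symm g : centralizer ({t} : Set X)).2).symm
      rw [← hh'] at hc ⊢
      obtain ⟨ha, hb⟩ := A.t_comm hc
      have : h' = ⟨0, 0, h'.k⟩ := by ext; exact ha; exact hb; rfl
      rw [this, A.toFrame.hom_z]
      exact pow_mem (mem_zpowers z) _
    have h4 : (e₂.symm g : centralizer ({t} : Set X)) = 1 := hLz _ (e₂.symm g).2 h3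
    have h5 : e₂.symm g = 1 := Subtype.ext h4
    have h6 : g = 1 := by
      have := congrArg e₂ h5
      rwa [e₂.apply_symm_apply, map_one] at this
    subst h6
    rw [map_one, mul_one] at h1
    have h7 : h = 1 := A.toFrame.hom_injective (by rw [h1, map_one])
    rw [h7]
    rfl
  have hfin : Finite Model := Nat.finite_of_card_ne_zero (by rw [card_model]; norm_num)
  have hΦ : Function.Bijective Φ := by
    rw [Nat.bijective_iff_injective_and_card]
    exact ⟨hΦinj, by rw [card_model, H.card_X]⟩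
  exact ⟨MulEquiv.ofBijective Φ hΦ⟩

/-- the hypotheses of the statement -/
theorem hyp_of [Finite X] (hR : Cfsg.IsExtraspecial 3 (Cfsg.pCore 3 X))
    (hRcard : Nat.card (Cfsg.pCore 3 X) = 27) (hRexp : ∀ r ∈ Cfsg.pCore 3 X, r ^ 3 = 1)
    (hn : (Cfsg.pCore 3 X).Normal)
    (e : X ⧸ Cfsg.pCore 3 X ≃* Matrix.SpecialLinearGroup (Fin 2) (ZMod 3))
    (hO2 : Cfsg.pCore 2 X = ⊥) :
    Hyp X (Cfsg.pCore 3 X) (e.toMonoidHom.comp (QuotientGroup.mk' _)) := by
  obtain ⟨⟨hP, hfr, hcom⟩, hcen⟩ := hR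
  have hcenter : ∀ (w : Cfsg.pCore 3 X), w ∈ Subgroup.center (Cfsg.pCore 3 X) ↔
      ∀ v ∈ Cfsg.pCore 3 X, Commute (w : X) v := by
    intro w
    rw [Subgroup.mem_center_iff]
    constructor
    · intro h v hv
      have := congrArg Subtype.val (h ⟨v, hv⟩)
      exact this.symm
    · intro h v
      exact Subtype.ext (h v v.2).eq.symm
  refine ⟨hn, hRcard, hRexp, ?_, ?_, ?_, ?_, ?_, ?_, ?_⟩
  · exact e.surjective.comp (QuotientGroup.mk'_surjective _)
  · intro g
    show e (QuotientGroup.mk g) = 1 ↔ _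
    rw [map_eq_one_iff e e.injective, QuotientGroup.eq_one_iff]
  · intro N hN hP
    exact le_sSup ⟨hN, hP⟩
  · intro N hN hP
    rw [eq_bot_iff, ← hO2]
    exact le_sSup ⟨hN, hP⟩
  · intro u hu v hv w hw
    have h1 : (⟨u, hu⟩ : Cfsg.pCore 3 X)⁻¹ * ⟨v, hv⟩⁻¹ * ⟨u, hu⟩ * ⟨v, hv⟩ ∈
        commutator (Cfsg.pCore 3 X) := by
      have := Subgroup.commutator_mem_commutator (Subgroup.mem_top
        ((⟨u, hu⟩ : Cfsg.pCore 3 X)⁻¹)) (Subgroup.mem_top ((⟨v, hv⟩ : Cfsg.pCore 3 X)⁻¹))
      rw [commutatorElement_def, inv_inv, inv_inv] at this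
      exact this
    rw [hcom, hcenter] at h1
    exact h1 w hw
  · intro u hu hu1 huc v hv hvc
    have hu' : (⟨u, hu⟩ : Cfsg.pCore 3 X) ∈ Subgroup.center (Cfsg.pCore 3 X) := (hcenter _).2 huc
    have hv' : (⟨v, hv⟩ : Cfsg.pCore 3 X) ∈ Subgroup.center (Cfsg.pCore 3 X) := (hcenter _).2 hvc
    have hou : orderOf u = 3 := orderOf_eq_prime (hRexp u hu) hu1
    have hle : zpowers (⟨u, hu⟩ : Cfsg.pCore 3 X) ≤ Subgroup.center (Cfsg.pCore 3 X) := by
      rwa [zpowers_le]
    have hcz : Nat.card (zpowers (⟨u, hu⟩ : Cfsg.pCore 3 X)) = 3 := by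
      rw [Nat.card_zpowers, Subgroup.orderOf_mk, hou]
    have heq : zpowers (⟨u, hu⟩ : Cfsg.pCore 3 X) = Subgroup.center (Cfsg.pCore 3 X) :=
      Subgroup.eq_of_le_of_card_ge hle (by rw [hcen, hcz])
    rw [← heq, mem_zpowers_iff] at hv'
    obtain ⟨k, hk⟩ := hv'
    have hk' : u ^ k = v := by
      have := congrArg Subtype.val hk
      rwa [SubgroupClass.coe_zpow] at this
    have h3 : u ^ (3 : ℤ) = 1 := by
      rw [← hRexp u hu]; exact zpow_natCast u 3
    have h4 : u ^ (k % 3) = v := by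
      rw [← hk']
      conv_rhs => rw [← Int.emod_add_mul_ediv k 3, _root_.zpow_add, _root_.zpow_mul, h3, _root_.one_zpow, mul_one]
    have h5 : k % 3 = 0 ∨ k % 3 = 1 ∨ k % 3 = 2 := by omega
    rcases h5 with h5 | h5 | h5
    · left; rw [← h4, h5, zpow_zero]
    · right; left; rw [← h4, h5, zpow_one]
    · right; right
      rw [← h4, h5]
      rw [eq_inv_iff_mul_eq_one]
      have : u ^ (2 : ℤ) * u = u ^ 3 := by
        rw [show (2 : ℤ) = ((2 : ℕ) : ℤ) from rfl, zpow_natCast, ← pow_succ]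
      rw [this, hRexp u hu]
  · by_contra hcon
    push Not at hcon
    have h1 : Subgroup.center (Cfsg.pCore 3 X) = ⊤ := by
      rw [eq_top_iff]
      intro w _
      rw [hcenter]
      intro v hv
      exact hcon w w.2 v hv
    rw [h1, Subgroup.card_top, hRcard] at hcen
    omega

end Cfsg.Agent.H350.Shape
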