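import Mathlib
import Cfsg.Prelude.Def_Transfer
import Cfsg.Prelude.Def_Solvable

/-!
The explicit group `3^{1+2}_+ : SL(2,3)` and a criterion for a group of order 648 to be isomorphic to it.
-/

set_option autoImplicit false

namespace Cfsg.Agent.H350.Shape

open Matrix

/-- The Heisenberg group over the field with three elements, in symmetric coordinates. -/
@[ext] structure Heis where
  a : ZMod 3
  b : ZMod 3
  k : ZMod 3
deriving DecidableEq

/-- coordinates -/
def heisEquiv : Heis ≃ ZMod 3 × ZMod 3 × ZMod 3 where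
  toFun h := (h.a, h.b, h.k)
  invFun p := ⟨p.1, p.2.1, p.2.2⟩
  left_inv _ := rfl
  right_inv _ := rfl

instance instFintypeHeis : Fintype Heis := Fintype.ofEquiv _ heisEquiv.symm

theorem card_heis : Nat.card Heis = 27 := by
  rw [Nat.card_congr heisEquiv, Nat.card_prod, Nat.card_prod, Nat.card_zmod]

instance instMulHeis : Mul Heis := ⟨fun g h => ⟨g.a + h.a, g.b + h.b, g.k + h.k - (g.a * h.b - g.b * h.a)⟩⟩
instance instOneHeis : One Heis := ⟨⟨0, 0, 0⟩⟩
instance instInvHeis : Inv Heis := ⟨fun g => ⟨-g.a, -g.b, -g.k⟩⟩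

theorem mul_def (g h : Heis) :
    g * h = ⟨g.a + h.a, g.b + h.b, g.k + h.k - (g.a * h.b - g.b * h.a)⟩ := rfl
theorem one_def : (1 : Heis) = ⟨0, 0, 0⟩ := rfl
theorem inv_def (g : Heis) : g⁻¹ = ⟨-g.a, -g.b, -g.k⟩ := rfl

@[simp] theorem mul_a (g h : Heis) : (g * h).a = g.a + h.a := rfl
@[simp] theorem mul_b (g h : Heis) : (g * h).b = g.b + h.b := rfl
@[simp] theorem mul_k (g h : Heis) : (g * h).k = g.k + h.k - (g.a * h.b - g.b * h.a) := rfl
@[simp] theorem one_a : (1 : Heis).a = 0 := rfl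
@[simp] theorem one_b : (1 : Heis).b = 0 := rfl
@[simp] theorem one_k : (1 : Heis).k = 0 := rfl
@[simp] theorem inv_a (g : Heis) : (g⁻¹).a = -g.a := rfl
@[simp] theorem inv_b (g : Heis) : (g⁻¹).b = -g.b := rfl
@[simp] theorem inv_k (g : Heis) : (g⁻¹).k = -g.k := rfl

instance instGroupHeis : Group Heis :=
  Group.ofLeftAxioms (fun x y z => by ext <;> simp <;> ring)
    (fun x => by ext <;> simp) (fun x => by ext <;> simp; ring)

/-- the action of `SL(2,3)` -/
def actFun (A : SpecialLinearGroup (Fin 2) (ZMod 3)) (h : Heis) : Heis :=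
  ⟨A 0 0 * h.a + A 0 1 * h.b, A 1 0 * h.a + A 1 1 * h.b, h.k⟩

theorem det_eq (s : SpecialLinearGroup (Fin 2) (ZMod 3)) : s 0 0 * s 1 1 - s 0 1 * s 1 0 = 1 := by
  have := s.2
  rw [Matrix.det_fin_two] at this
  exact this

theorem mul_entry (s t : SpecialLinearGroup (Fin 2) (ZMod 3)) (i j : Fin 2) :
    (s * t) i j = s i 0 * t 0 j + s i 1 * t 1 j := by
  have h := congrFun (congrFun (Matrix.SpecialLinearGroup.coe_mul s t) i) j
  rw [Matrix.mul_apply, Fin.sum_univ_two] at h
  exact h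

theorem ext_entry (s t : SpecialLinearGroup (Fin 2) (ZMod 3)) (h1 : s 0 0 = t 0 0)
    (h2 : s 0 1 = t 0 1) (h3 : s 1 0 = t 1 0) (h4 : s 1 1 = t 1 1) : s = t := by
  ext a b
  fin_cases a <;> fin_cases b
  · exact h1
  · exact h2
  · exact h3
  · exact h4

theorem actFun_mul (A : SpecialLinearGroup (Fin 2) (ZMod 3)) (g h : Heis) :
    actFun A (g * h) = actFun A g * actFun A h := by
  have hd := det_eq A
  ext
  · simp [actFun]; ring
  · simp [actFun]; ring
  · simp only [actFun, mul_k, mul_a, mul_b]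
    linear_combination (-(g.b * h.a - g.a * h.b)) * hd

theorem actFun_comp (A B : SpecialLinearGroup (Fin 2) (ZMod 3)) (h : Heis) :
    actFun (A * B) h = actFun A (actFun B h) := by
  ext <;> simp only [actFun, mul_entry] <;> ring

theorem actFun_one (h : Heis) : actFun 1 h = h := by
  have e1 : (1 : SpecialLinearGroup (Fin 2) (ZMod 3)) 0 0 = 1 := rfl
  have e2 : (1 : SpecialLinearGroup (Fin 2) (ZMod 3)) 0 1 = 0 := rfl
  have e3 : (1 : SpecialLinearGroup (Fin 2) (ZMod 3)) 1 0 = 0 := rfl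
  have e4 : (1 : SpecialLinearGroup (Fin 2) (ZMod 3)) 1 1 = 1 := rfl
  ext <;> simp [actFun, e1, e2, e3, e4]

/-- the action as automorphisms -/
def act : SpecialLinearGroup (Fin 2) (ZMod 3) →* MulAut Heis where
  toFun A :=
    { toFun := actFun A
      invFun := actFun A⁻¹
      left_inv := fun h => by rw [← actFun_comp, inv_mul_cancel, actFun_one]
      right_inv := fun h => by rw [← actFun_comp, mul_inv_cancel, actFun_one]
      map_mul' := actFun_mul A }
  map_one' := by
    ext h : 1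
    exact actFun_one h
  map_mul' A B := by
    ext h : 1
    exact actFun_comp A B h

@[simp] theorem act_apply (A : SpecialLinearGroup (Fin 2) (ZMod 3)) (h : Heis) :
    act A h = actFun A h := rfl

/-- The group `3^{1+2}_+ : SL(2,3)`. -/
abbrev Model : Type := Heis ⋊[act] SpecialLinearGroup (Fin 2) (ZMod 3)

theorem card_sl : Nat.card (SpecialLinearGroup (Fin 2) (ZMod 3)) = 24 := by
  rw [Nat.card_eq_fintype_card]
  decide +kernel

theorem card_model : Nat.card Model = 648 := by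
  rw [SemidirectProduct.card, card_heis, card_sl]

theorem sl_invol : ∀ g : SpecialLinearGroup (Fin 2) (ZMod 3), g ^ 2 = 1 → g = 1 ∨ g = -1 := by
  decide +kernel

/-- an element of order three -/
def sT : SpecialLinearGroup (Fin 2) (ZMod 3) := ⟨!![1, 1; 0, 1], by decide⟩

theorem sT_cube : sT ^ 3 = 1 := by decide +kernel

theorem sl_prod : ∀ g : SpecialLinearGroup (Fin 2) (ZMod 3),
    (∃ a b : SpecialLinearGroup (Fin 2) (ZMod 3), g = a * b ∧ a ^ 3 = 1 ∧ b ^ 3 = 1) ∨
    (∃ a b : SpecialLinearGroup (Fin 2) (ZMod 3), g = a * b * sT ∧ a ^ 3 = 1 ∧ b ^ 3 = 1) := by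
  decide +kernel

theorem sl_invol' (g : SpecialLinearGroup (Fin 2) (ZMod 3)) (h2 : g ^ 2 = 1) (h1 : g ≠ 1)
    (h : SpecialLinearGroup (Fin 2) (ZMod 3)) : h * g = g * h := by
  rcases sl_invol g h2 with h3 | h3
  · exact absurd h3 h1
  · subst h3; simp

theorem mat_invol : ∀ a b c d : ZMod 3, a * d - b * c = 1 → a * a + b * c = 1 → a * b + b * d = 0 →
    c * a + d * c = 0 → c * b + d * d = 1 →
    (a = 1 ∧ b = 0 ∧ c = 0 ∧ d = 1) ∨ (a = -1 ∧ b = 0 ∧ c = 0 ∧ d = -1) := by
  decide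

end Cfsg.Agent.H350.Shape
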