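import Cfsg.Agent.H350.ShapeModel
import Cfsg.Agent.LieClassical.SympCenter
import Cfsg.Prelude.Def_Classical

/-!
The model inside `Sp(4,3)` and `PSp(4,3)`.
-/

set_option autoImplicit false
set_option linter.unusedSimpArgs false
set_option linter.unnecessarySeqFocus false
set_option linter.unusedTactic false
set_option linter.unreachableTactic false

namespace Cfsg.Agent.H350.Shape

open Matrix Subgroup

/-- the field -/
abbrev K3 := ZMod 3

/-- the unipotent part -/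
def uMat (h : Heis) : Matrix (Fin 2 ⊕ Fin 2) (Fin 2 ⊕ Fin 2) (ZMod 3) :=
  fromBlocks !![1, 0; -h.b, 1] 0 !![h.k, h.a; h.a, 0] !![1, h.b; 0, 1]

/-- the Levi part -/
def lMat (S : SpecialLinearGroup (Fin 2) (ZMod 3)) :
    Matrix (Fin 2 ⊕ Fin 2) (Fin 2 ⊕ Fin 2) (ZMod 3) :=
  fromBlocks !![1, 0; 0, S 1 1] !![0, 0; 0, -S 1 0] !![0, 0; 0, -S 0 1] !![1, 0; 0, S 0 0]

theorem uMat_mem (h : Heis) : uMat h ∈ symplecticGroup (Fin 2) (ZMod 3) := by
  rw [uMat, SymplecticGroup.fromBlocks_mem_iff]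
  refine ⟨?_, ?_, ?_⟩ <;> (ext i j; fin_cases i <;> fin_cases j <;>
    simp [Matrix.mul_apply, Fin.sum_univ_two, Matrix.transpose_apply] <;> ring)

theorem lMat_mem (S : SpecialLinearGroup (Fin 2) (ZMod 3)) :
    lMat S ∈ symplecticGroup (Fin 2) (ZMod 3) := by
  have hd := det_eq S
  rw [lMat, SymplecticGroup.fromBlocks_mem_iff]
  refine ⟨?_, ?_, ?_⟩
  · ext i j; fin_cases i <;> fin_cases j <;>
      simp [Matrix.mul_apply, Fin.sum_univ_two, Matrix.transpose_apply] <;> ring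
  · ext i j; fin_cases i <;> fin_cases j <;>
      simp [Matrix.mul_apply, Fin.sum_univ_two, Matrix.transpose_apply] <;> ring
  · ext i j; fin_cases i <;> fin_cases j <;>
      simp [Matrix.mul_apply, Fin.sum_univ_two, Matrix.transpose_apply]
    linear_combination hd

theorem uMat_mul (g h : Heis) : uMat (g * h) = uMat g * uMat h := by
  rw [uMat, uMat, uMat, fromBlocks_multiply]
  congr 1 <;> (ext i j; fin_cases i <;> fin_cases j <;>
    simp [Matrix.mul_apply, Fin.sum_univ_two] <;> ring)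

theorem lMat_mul (S T : SpecialLinearGroup (Fin 2) (ZMod 3)) : lMat (S * T) = lMat S * lMat T := by
  rw [lMat, lMat, lMat, fromBlocks_multiply]
  congr 1 <;> (ext i j; fin_cases i <;> fin_cases j <;>
    simp [Matrix.mul_apply, Fin.sum_univ_two, mul_entry] <;> ring)

/-- the unipotent homomorphism -/
def uHom : Heis →* symplecticGroup (Fin 2) (ZMod 3) :=
  MonoidHom.mk' (fun h => ⟨uMat h, uMat_mem h⟩) fun g h => Subtype.ext (uMat_mul g h)

/-- the Levi homomorphism -/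
def lHom : SpecialLinearGroup (Fin 2) (ZMod 3) →* symplecticGroup (Fin 2) (ZMod 3) :=
  MonoidHom.mk' (fun h => ⟨lMat h, lMat_mem h⟩) fun g h => Subtype.ext (lMat_mul g h)

theorem uHom_coe (h : Heis) : (uHom h : Matrix _ _ (ZMod 3)) = uMat h := rfl
theorem lHom_coe (h : SpecialLinearGroup (Fin 2) (ZMod 3)) :
    (lHom h : Matrix _ _ (ZMod 3)) = lMat h := rfl

theorem compat_mat (S : SpecialLinearGroup (Fin 2) (ZMod 3)) (h : Heis) :
    uMat (act S h) * lMat S = lMat S * uMat h := by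
  have hd := det_eq S
  rw [uMat, uMat, lMat, fromBlocks_multiply, fromBlocks_multiply]
  congr 1 <;>
  · ext i j; fin_cases i <;> fin_cases j <;>
      simp [Matrix.mul_apply, Fin.sum_univ_two, actFun] <;>
      first
        | ring1
        | linear_combination (-1 : ZMod 3) * h.b * hd
        | linear_combination h.b * hd
        | linear_combination h.a * hd

/-- the homomorphism from the model -/
def mHom : Model →* symplecticGroup (Fin 2) (ZMod 3) :=
  SemidirectProduct.lift uHom lHom (by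
    intro S
    ext h : 1
    show uHom (act S h) = lHom S * uHom h * (lHom S)⁻¹
    rw [eq_mul_inv_iff_mul_eq]
    exact Subtype.ext (compat_mat S h))

theorem mHom_apply (h : Heis) (S : SpecialLinearGroup (Fin 2) (ZMod 3)) :
    mHom ⟨h, S⟩ = uHom h * lHom S := by
  rw [← SemidirectProduct.inl_left_mul_inr_right ⟨h, S⟩, map_mul]
  simp [mHom]

/-- the product matrix -/
theorem mHom_coe (h : Heis) (S : SpecialLinearGroup (Fin 2) (ZMod 3)) :
    (mHom ⟨h, S⟩).1 = fromBlocks !![1, 0; -h.b, S 1 1] !![0, 0; 0, -S 1 0]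
      !![h.k, h.a * S 1 1 - h.b * S 0 1; h.a, -S 0 1] !![1, h.b * S 0 0 - h.a * S 1 0; 0, S 0 0] := by
  rw [mHom_apply]
  show uMat h * lMat S = _
  rw [uMat, lMat, fromBlocks_multiply]
  congr 1 <;>
  · ext i j; fin_cases i <;> fin_cases j <;>
      simp [Matrix.mul_apply, Fin.sum_univ_two] <;> ring

theorem mHom_injective_aux {h : Heis} {S : SpecialLinearGroup (Fin 2) (ZMod 3)} {c : ZMod 3}
    (hc : (mHom ⟨h, S⟩).1 = c • 1) : h = 1 ∧ S = 1 := by
  rw [mHom_coe] at hc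
  have e := fun i j => congrFun (congrFun hc i) j
  have e1 := e (Sum.inl 0) (Sum.inl 0)
  have e2 := e (Sum.inl 1) (Sum.inl 0)
  have e3 := e (Sum.inl 1) (Sum.inl 1)
  have e4 := e (Sum.inl 1) (Sum.inr 1)
  have e5 := e (Sum.inr 0) (Sum.inl 0)
  have e6 := e (Sum.inr 1) (Sum.inl 0)
  have e7 := e (Sum.inr 1) (Sum.inl 1)
  have e8 := e (Sum.inr 1) (Sum.inr 1)
  simp [Matrix.smul_apply, Matrix.one_apply] at e1 e2 e3 e4 e5 e6 e7 e8
  rw [← e1] at e3 e8
  refine ⟨?_, ?_⟩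
  · ext
    · exact e6
    · exact e2
    · exact e5
  · apply ext_entry
    · exact e8
    · exact e7
    · exact e4
    · exact e3

/-- the transvection -/
def tv : symplecticGroup (Fin 2) (ZMod 3) := mHom ⟨⟨0, 0, 1⟩, 1⟩

theorem tv_coe : tv.1 = fromBlocks 1 0 !![1, 0; 0, 0] 1 := by
  rw [tv, mHom_coe]
  congr 1 <;>
  · ext i j; fin_cases i <;> fin_cases j <;> simp

theorem cent_tv {G : Matrix (Fin 2 ⊕ Fin 2) (Fin 2 ⊕ Fin 2) (ZMod 3)}
    (hG : G ∈ symplecticGroup (Fin 2) (ZMod 3)) (hc : G * tv.1 = tv.1 * G)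
    (h1 : G (Sum.inl 0) (Sum.inl 0) = 1) : ∃ m : Model, (mHom m).1 = G := by
  obtain ⟨A, B, C, D, rfl⟩ : ∃ A B C D, G = fromBlocks A B C D :=
    ⟨_, _, _, _, (fromBlocks_toBlocks G).symm⟩
  rw [tv_coe, fromBlocks_multiply, fromBlocks_multiply, fromBlocks_inj] at hc
  obtain ⟨c1, c2, c3, c4⟩ := hc
  rw [SymplecticGroup.fromBlocks_mem_iff] at hG
  obtain ⟨s1, s2, s3⟩ := hG
  have f1 := fun i j => congrFun (congrFun c1 i) j
  have f3 := fun i j => congrFun (congrFun c3 i) j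
  have f4 := fun i j => congrFun (congrFun c4 i) j
  have g1 := fun i j => congrFun (congrFun s1 i) j
  have g3 := fun i j => congrFun (congrFun s3 i) j
  simp only [fromBlocks_apply₁₁] at h1
  have B00 := f1 0 0
  have B10 := f1 1 0
  have X1 := f3 0 0
  have X2 := f3 0 1
  have X3 := f3 1 0
  have B01 := f4 0 1
  simp [Matrix.mul_apply, Fin.sum_univ_two, Matrix.vecMul, dotProduct] at B00 B10 X1 X2 X3 B01
  rw [add_comm] at X1
  have D00 : D 0 0 = 1 := by rw [add_right_cancel X1, h1]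
  have Y1 := g3 0 1
  have Y2 := g3 1 1
  have Y3 := g1 0 1
  simp [Matrix.mul_apply, Fin.sum_univ_two, B00, B10, B01, X2, X3, h1] at Y1 Y2 Y3
  have hdet : (!![D 1 1, -C 1 1; -B 1 1, A 1 1] : Matrix (Fin 2) (Fin 2) (ZMod 3)).det = 1 := by
    rw [Matrix.det_fin_two_of]
    linear_combination Y2
  obtain ⟨S, hS⟩ : ∃ S : SpecialLinearGroup (Fin 2) (ZMod 3),
      S.1 = !![D 1 1, -C 1 1; -B 1 1, A 1 1] := ⟨⟨_, hdet⟩, rfl⟩
  have S00 : S 0 0 = D 1 1 := congrFun (congrFun hS 0) 0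
  have S01 : S 0 1 = -C 1 1 := congrFun (congrFun hS 0) 1
  have S10 : S 1 0 = -B 1 1 := congrFun (congrFun hS 1) 0
  have S11 : S 1 1 = A 1 1 := congrFun (congrFun hS 1) 1
  obtain ⟨h, ha, hb, hk⟩ : ∃ h : Heis, h.a = C 1 0 ∧ h.b = -A 1 0 ∧ h.k = C 0 0 :=
    ⟨⟨_, _, _⟩, rfl, rfl, rfl⟩
  refine ⟨⟨h, S⟩, ?_⟩
  rw [mHom_coe]
  congr 1
  · ext i j; fin_cases i <;> fin_cases j <;> simp [h1, X2, S00, S01, S10, S11, ha, hb, hk]
  · ext i j; fin_cases i <;> fin_cases j <;> simp [B00, B10, B01, S00, S01, S10, S11, ha, hb, hk]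
  · ext i j; fin_cases i <;> fin_cases j <;> simp [S00, S01, S10, S11, ha, hb, hk]
    linear_combination (-1 : ZMod 3) * Y3
  · ext i j; fin_cases i <;> fin_cases j <;> simp [D00, X3, S00, S01, S10, S11, ha, hb, hk]
    linear_combination (-1 : ZMod 3) * Y1

theorem negOne_mem : (-1 : Matrix (Fin 2 ⊕ Fin 2) (Fin 2 ⊕ Fin 2) (ZMod 3)) ∈
    symplecticGroup (Fin 2) (ZMod 3) := SymplecticGroup.neg_mem (Submonoid.one_mem _)

/-- minus one -/
def nOne : symplecticGroup (Fin 2) (ZMod 3) := ⟨-1, negOne_mem⟩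

theorem nOne_cen : nOne ∈ Subgroup.center (symplecticGroup (Fin 2) (ZMod 3)) := by
  rw [LieClassical.SympCenter.mem_center_iff]
  exact ⟨-1, by simp [nOne]⟩

theorem cen_cases {g : symplecticGroup (Fin 2) (ZMod 3)}
    (hg : g ∈ Subgroup.center (symplecticGroup (Fin 2) (ZMod 3))) :
    ∃ c : ZMod 3, g.1 = c • 1 ∧ c * c = 1 := by
  obtain ⟨c, hc⟩ := (LieClassical.SympCenter.mem_center_iff 2 g).1 hg
  refine ⟨c, hc, ?_⟩
  apply LieClassical.SympCenter.sq_eq_one_of_smul_mem (m := 2) (by norm_num)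
  rw [← hc]
  exact g.2

/-- the quotient map -/
def qPSp : symplecticGroup (Fin 2) (ZMod 3) →* Cfsg.PSp 2 (ZMod 3) := QuotientGroup.mk' _

theorem qPSp_eq_one {g : symplecticGroup (Fin 2) (ZMod 3)} :
    qPSp g = 1 ↔ g ∈ Subgroup.center (symplecticGroup (Fin 2) (ZMod 3)) := by
  rw [qPSp, QuotientGroup.mk'_apply, QuotientGroup.eq_one_iff]

theorem tv_cube : tv ^ 3 = 1 := by
  rw [tv, ← map_pow]
  have : ((⟨⟨0, 0, 1⟩, 1⟩ : Model) ^ 3) = 1 := by
    have e : (⟨⟨0, 0, 1⟩, 1⟩ : Model) = SemidirectProduct.inl ⟨0, 0, 1⟩ := rfl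
    rw [e, ← map_pow]
    have : (⟨0, 0, 1⟩ : Heis) ^ 3 = 1 := by decide
    rw [this, map_one]
  rw [this, map_one]

theorem sp_cent {g : symplecticGroup (Fin 2) (ZMod 3)} (h : Commute (qPSp g) (qPSp tv)) :
    ∃ m : Model, qPSp (mHom m) = qPSp g := by
  -- `g` commutes with the transvection
  have h1 : Commute g tv := by
    have h2 : qPSp (g * tv * g⁻¹ * tv⁻¹) = 1 := by
      rw [map_mul, map_mul, map_mul, map_inv, map_inv, h.eq]; group
    rw [qPSp_eq_one] at h2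
    obtain ⟨c, hc, hcc⟩ := cen_cases h2
    have h3 : (g * tv * g⁻¹ * tv⁻¹) ^ 2 = 1 := by
      apply Subtype.ext
      rw [pow_two]
      show (g * tv * g⁻¹ * tv⁻¹).1 * (g * tv * g⁻¹ * tv⁻¹).1 = 1
      rw [hc]
      simp [smul_smul, hcc]
    have h4 : (g * tv * g⁻¹ * tv⁻¹) ^ 3 = 1 := by
      set w := g * tv * g⁻¹ * tv⁻¹ with hw
      have hcw : Commute w tv := (Subgroup.mem_center_iff.1 h2 tv).symm
      have h5 : g * tv * g⁻¹ = w * tv := by rw [hw]; group
      have h6 : (w * tv) ^ 3 = 1 := by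
        rw [← h5, conj_pow, tv_cube]; group
      rw [hcw.mul_pow, tv_cube, mul_one] at h6
      exact h6
    have h5 : g * tv * g⁻¹ * tv⁻¹ = 1 := by
      set w := g * tv * g⁻¹ * tv⁻¹ with hw
      calc w = w ^ 3 * (w ^ 2)⁻¹ := by group
        _ = 1 := by rw [h3, h4]; group
    have h6 : g * tv = tv * g := by
      calc g * tv = (g * tv * g⁻¹ * tv⁻¹) * (tv * g) := by group
        _ = tv * g := by rw [h5, one_mul]
    exact h6
  have h2 : g.1 * tv.1 = tv.1 * g.1 := congrArg Subtype.val h1.eq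
  have hG := g.2
  have hsq : g.1 (Sum.inl 0) (Sum.inl 0) = 1 ∨ g.1 (Sum.inl 0) (Sum.inl 0) = -1 := by
    generalize g.1 = G at h2 hG
    obtain ⟨A, B, C, D, rfl⟩ : ∃ A B C D, G = fromBlocks A B C D :=
      ⟨_, _, _, _, (fromBlocks_toBlocks G).symm⟩
    rw [tv_coe, fromBlocks_multiply, fromBlocks_multiply, fromBlocks_inj] at h2
    obtain ⟨c1, c2, c3, c4⟩ := h2
    rw [SymplecticGroup.fromBlocks_mem_iff] at hG
    obtain ⟨s1, s2, s3⟩ := hG
    have B00 := congrFun (congrFun c1 0) 0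
    have B10 := congrFun (congrFun c1 1) 0
    have X1 := congrFun (congrFun c3 0) 0
    have X3 := congrFun (congrFun c3 1) 0
    simp [Matrix.mul_apply, Fin.sum_univ_two, Matrix.vecMul, dotProduct] at B00 B10 X1 X3
    rw [add_comm] at X1
    have D00 : D 0 0 = A 0 0 := add_right_cancel X1
    have Y0 := congrFun (congrFun s3 0) 0
    simp [Matrix.mul_apply, Fin.sum_univ_two, B00, B10, X3, D00] at Y0
    have key : ∀ a : ZMod 3, a * a = 1 → a = 1 ∨ a = -1 := by decide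
    simpa using key _ Y0
  rcases hsq with h3 | h3
  · obtain ⟨m, hm⟩ := cent_tv hG h2 h3
    exact ⟨m, by rw [show mHom m = g from Subtype.ext hm]⟩
  · have h4 : (nOne * g).1 = -g.1 := by
      show (-1 : Matrix _ _ _) * g.1 = _
      simp
    have h5 : (nOne * g).1 * tv.1 = tv.1 * (nOne * g).1 := by
      rw [h4]; simp [h2]
    obtain ⟨m, hm⟩ := cent_tv (nOne * g).2 h5 (by rw [h4]; simp [h3])
    refine ⟨m, ?_⟩
    rw [show mHom m = nOne * g from Subtype.ext hm, map_mul, qPSp_eq_one.2 nOne_cen, one_mul]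

theorem tv_comm (m : Model) : Commute (mHom m) tv := by
  have : Commute m ⟨⟨0, 0, 1⟩, 1⟩ := by
    obtain ⟨h, S⟩ := m
    apply SemidirectProduct.ext
    · simp only [SemidirectProduct.mul_left, map_one, MulAut.one_apply]
      ext
      · simp [actFun]
      · simp [actFun]
      · simp [actFun]; ring
    · simp
  exact this.map mHom

/-- the centralizer of the transvection in `PSp(4,3)` -/
theorem model_cent : Nonempty (Model ≃* centralizer ({qPSp tv} : Set (Cfsg.PSp 2 (ZMod 3)))) := by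
  let Ψ : Model →* centralizer ({qPSp tv} : Set (Cfsg.PSp 2 (ZMod 3))) :=
    (qPSp.comp mHom).codRestrict _ fun m => by
      rw [mem_centralizer_singleton_iff]
      exact ((tv_comm m).map qPSp).eq
  refine ⟨MulEquiv.ofBijective Ψ ⟨?_, ?_⟩⟩
  · rw [injective_iff_map_eq_one]
    rintro ⟨h, S⟩ hm
    have h1 : qPSp (mHom ⟨h, S⟩) = 1 := congrArg Subtype.val hm
    rw [qPSp_eq_one] at h1
    obtain ⟨c, hc, -⟩ := cen_cases h1
    obtain ⟨e1, e2⟩ := mHom_injective_aux hc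
    rw [e1, e2]
    rfl
  · rintro ⟨g, hg⟩
    obtain ⟨g', rfl⟩ : ∃ g', qPSp g' = g := QuotientGroup.mk'_surjective _ g
    rw [mem_centralizer_singleton_iff] at hg
    obtain ⟨m, hm⟩ := sp_cent (show Commute (qPSp g') (qPSp tv) from hg)
    exact ⟨m, Subtype.ext hm⟩

end Cfsg.Agent.H350.Shape
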