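import Cfsg.Agent.H350.ShapeFrame
import Cfsg.Agent.S0051

/-!
A group of shape `3^{1+2}_+.SL(2,3)` with the hypotheses of S3366 is isomorphic to the model.
-/

set_option autoImplicit false

namespace Cfsg.Agent.H350.Shape

open Matrix Subgroup

variable {X : Type*} [Group X]

theorem heis_pow (a b k : ZMod 3) (n : ℕ) : (⟨a, b, k⟩ : Heis) ^ n = ⟨n * a, n * b, n * k⟩ := by
  induction n with
  | zero => rw [pow_zero, one_def]; simp
  | succ m ih =>
    rw [pow_succ, ih, mul_def]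
    ext <;> simp <;> ring

theorem heis_pw (a b k u : ZMod 3) : (⟨a, b, k⟩ : Heis) ^ u.val = ⟨u * a, u * b, u * k⟩ := by
  rw [heis_pow, ZMod.natCast_zmod_val]

namespace Frame

variable {x y z : X}

/-- conjugation in coordinates -/
theorem conj_hom (F : Frame x y z) {g : X} (hz : Commute g z) {a c k1 b d k2 : ZMod 3}
    (hx : g * x * g⁻¹ = F.hom ⟨a, c, k1⟩) (hy : g * y * g⁻¹ = F.hom ⟨b, d, k2⟩) :
    a * d - b * c = 1 ∧ ∀ h : Heis, g * F.hom h * g⁻¹ =
      F.hom ⟨a * h.a + b * h.b, c * h.a + d * h.b, h.k + h.a * k1 + h.b * k2⟩ := by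
  have hgz : ∀ n : ℕ, g * z ^ n * g⁻¹ = z ^ n := by
    intro n
    rw [(hz.pow_right n).eq, mul_inv_cancel_right]
  have hdet : a * d - b * c = 1 := by
    have h1 : g * (y * x) * g⁻¹ = g * (x * y * z⁻¹) * g⁻¹ := by rw [F.yx]
    have h2 : g * (y * x) * g⁻¹ = F.hom (⟨b, d, k2⟩ * ⟨a, c, k1⟩) := by
      rw [map_mul, ← hx, ← hy]; group
    have hzi : g * z⁻¹ * g⁻¹ = z⁻¹ := by
      rw [(hz.inv_right).eq, mul_inv_cancel_right]
    have hz1 : F.hom ⟨0, 0, -1⟩ = z⁻¹ := by
      rw [F.hom_z, pw_neg_one F.z3]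
    have h3 : g * (x * y * z⁻¹) * g⁻¹ = F.hom (⟨a, c, k1⟩ * ⟨b, d, k2⟩ * ⟨0, 0, -1⟩) := by
      rw [map_mul, map_mul, ← hx, ← hy, hz1]
      calc g * (x * y * z⁻¹) * g⁻¹ = (g * x * g⁻¹) * (g * y * g⁻¹) * (g * z⁻¹ * g⁻¹) := by group
        _ = _ := by rw [hzi]
    rw [h2, h3] at h1
    have h4 := F.hom_injective h1
    have h5 := congrArg Heis.k h4
    simp only [mul_k, mul_a, mul_b] at h5
    have h6 : (3 : ZMod 3) = 0 := by decide
    linear_combination (-1 : ZMod 3) * h5 + (a * d - b * c) * h6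
  refine ⟨hdet, fun h => ?_⟩
  have h1 : g * F.hom h * g⁻¹ = (g * x * g⁻¹) ^ h.a.val * (g * y * g⁻¹) ^ h.b.val *
      z ^ (h.k + h.a * h.b).val := by
    rw [F.hom_apply, conj_pow, conj_pow, ← hgz (h.k + h.a * h.b).val]
    rw [hgz]
    calc g * (x ^ h.a.val * y ^ h.b.val * z ^ (h.k + h.a * h.b).val) * g⁻¹
        = g * x ^ h.a.val * g⁻¹ * (g * y ^ h.b.val * g⁻¹) *
          (g * z ^ (h.k + h.a * h.b).val * g⁻¹) := by group
      _ = _ := by rw [hgz]
  rw [h1, hx, hy, ← map_pow, ← map_pow, ← F.hom_z, ← map_mul, ← map_mul, heis_pw, heis_pw]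
  congr 1
  ext
  · simp; ring
  · simp; ring
  · simp only [mul_k, mul_a, mul_b]
    linear_combination (-(h.a * h.b)) * hdet

end Frame

theorem card_mul_rel {R N : Subgroup X} (h : R ≤ N) : Nat.card R * R.relIndex N = Nat.card N := by
  have := relIndex_mul_relIndex ⊥ R N bot_le h
  rwa [relIndex_bot_left, relIndex_bot_left] at this

/-- the hypotheses, unpacked -/
structure Hyp (X : Type*) [Group X] (R : Subgroup X) (π : X →* SpecialLinearGroup (Fin 2) (ZMod 3)) :
    Prop where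
  norm : R.Normal
  card : Nat.card R = 27
  exp : ∀ r ∈ R, r ^ 3 = 1
  surj : Function.Surjective π
  ker : ∀ g, π g = 1 ↔ g ∈ R
  core3 : ∀ N : Subgroup X, N.Normal → IsPGroup 3 N → N ≤ R
  core2 : ∀ N : Subgroup X, N.Normal → IsPGroup 2 N → N = ⊥
  cen : ∀ u ∈ R, ∀ v ∈ R, ∀ w ∈ R, Commute (u⁻¹ * v⁻¹ * u * v) w
  cen3 : ∀ u ∈ R, u ≠ 1 → (∀ w ∈ R, Commute u w) → ∀ v ∈ R, (∀ w ∈ R, Commute v w) →
    v = 1 ∨ v = u ∨ v = u⁻¹
  nab : ∃ u ∈ R, ∃ v ∈ R, u * v ≠ v * u

namespace Hyp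

variable {R : Subgroup X} {π : X →* SpecialLinearGroup (Fin 2) (ZMod 3)}

theorem sq_one (H : Hyp X R π) {r : X} (hr : r ∈ R) (h : r ^ 2 = 1) : r = 1 := by
  have h3 := H.exp r hr
  calc r = r ^ 3 * (r ^ 2)⁻¹ := by group
    _ = 1 := by rw [h3, h]; simp

/-- there is a frame in `R`, with central `z` -/
theorem exists_frame (H : Hyp X R π) : ∃ x y z : X, x ∈ R ∧ y ∈ R ∧ z ∈ R ∧ Frame x y z ∧
    (∀ w ∈ R, Commute z w) := by
  obtain ⟨x, hx, y, hy, hxy⟩ := H.nab
  have hz : x⁻¹ * y⁻¹ * x * y ∈ R :=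
    R.mul_mem (R.mul_mem (R.mul_mem (R.inv_mem hx) (R.inv_mem hy)) hx) hy
  refine ⟨x, y, x⁻¹ * y⁻¹ * x * y, hx, hy, hz, ⟨H.exp x hx, H.exp y hy, H.exp _ hz, ?_, ?_, ?_, ?_⟩,
    fun w hw => H.cen x hx y hy w hw⟩
  · group
  · exact (H.cen x hx y hy x hx).symm
  · exact (H.cen x hx y hy y hy).symm
  · intro h
    apply hxy
    have : x * y = y * x * (x⁻¹ * y⁻¹ * x * y) := by group
    rw [this, h, mul_one]

/-- the centre of `R` is central in `X` -/
theorem central (H : Hyp X R π) {z : X} (hz : z ∈ R) (hz1 : z ≠ 1) (hzc : ∀ w ∈ R, Commute z w)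
    (g : X) : Commute g z := by
  have hn := H.norm
  have key : ∀ g : X, π g ^ 3 = 1 → Commute g z := by
    intro g hg
    have h1 : g ^ 3 ∈ R := by rw [← H.ker, map_pow, hg]
    have h2 : g ^ 9 = 1 := by
      calc g ^ 9 = (g ^ 3) ^ 3 := by rw [← pow_mul]
        _ = 1 := H.exp _ h1
    have h3 : g * z * g⁻¹ = 1 ∨ g * z * g⁻¹ = z ∨ g * z * g⁻¹ = z⁻¹ := by
      refine H.cen3 z hz hz1 hzc _ (hn.conj_mem z hz g) fun w hw => ?_
      have h4 := hzc (g⁻¹ * w * g) (by simpa using hn.conj_mem w hw g⁻¹)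
      have h5 : g * z * g⁻¹ * w = g * (z * (g⁻¹ * w * g)) * g⁻¹ := by group
      show g * z * g⁻¹ * w = w * (g * z * g⁻¹)
      rw [h5, h4.eq]; group
    rcases h3 with h3 | h3 | h3
    · exfalso
      apply hz1
      have : z = g⁻¹ * (g * z * g⁻¹) * g := by group
      rw [this, h3]; group
    · exact mul_inv_eq_iff_eq_mul.mp h3
    · exfalso
      have h4 : ∀ n : ℕ, g ^ (2 * n) * z * (g ^ (2 * n))⁻¹ = z := by
        intro n
        induction n with
        | zero => simp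
        | succ m ih =>
          have e : g ^ (2 * (m + 1)) * z * (g ^ (2 * (m + 1)))⁻¹ =
              g ^ (2 * m) * (g * (g * z * g⁻¹) * g⁻¹) * (g ^ (2 * m))⁻¹ := by
            rw [show 2 * (m + 1) = 2 * m + 2 by ring, pow_add, pow_two]; group
          rw [e, h3]
          have e2 : g * z⁻¹ * g⁻¹ = z := by
            have : g * z⁻¹ * g⁻¹ = (g * z * g⁻¹)⁻¹ := by group
            rw [this, h3, inv_inv]
          rw [e2, ih]
      have h5 := h4 4
      have h6 : g ^ (2 * 4) = g⁻¹ := by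
        rw [eq_inv_iff_mul_eq_one, ← pow_succ]; exact h2
      rw [h6, inv_inv] at h5
      have h7 : g * z * g⁻¹ = z := by
        have : z = g * (g⁻¹ * z * g) * g⁻¹ := by group
        rw [h5] at this
        exact this.symm
      rw [h7] at h3
      apply hz1
      apply H.sq_one hz
      rw [pow_two]
      nth_rewrite 2 [h3]
      simp
  have hr : ∀ r ∈ R, Commute r z := fun r hr => (hzc r hr).symm
  obtain ⟨t, ht⟩ := H.surj sT
  have ht' : Commute t z := key t (by rw [ht]; exact sT_cube)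
  rcases sl_prod (π g) with ⟨a, b, hab, ha, hb⟩ | ⟨a, b, hab, ha, hb⟩
  · obtain ⟨a', rfl⟩ := H.surj a
    obtain ⟨b', rfl⟩ := H.surj b
    have h1 : (a' * b')⁻¹ * g ∈ R := by
      rw [← H.ker, map_mul, map_inv, map_mul, hab]; group
    have h2 : g = a' * b' * ((a' * b')⁻¹ * g) := by group
    rw [h2]
    exact (((key a' ha).mul_left (key b' hb)).mul_left (hr _ h1))
  · obtain ⟨a', rfl⟩ := H.surj a
    obtain ⟨b', rfl⟩ := H.surj b
    have h1 : (a' * b' * t)⁻¹ * g ∈ R := by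
      rw [← H.ker, map_mul, map_inv, map_mul, map_mul, hab, ht]; group
    have h2 : g = a' * b' * t * ((a' * b' * t)⁻¹ * g) := by group
    rw [h2]
    exact ((((key a' ha).mul_left (key b' hb)).mul_left ht').mul_left (hr _ h1))

theorem exists_t (H : Hyp X R π) : ∃ t : X, π t = -1 ∧ t ^ 2 = 1 := by
  obtain ⟨t, ht⟩ := H.surj (-1)
  refine ⟨t ^ 3, ?_, ?_⟩
  · rw [map_pow, ht]; decide +kernel
  · have h1 : t ^ 2 ∈ R := by
      rw [← H.ker, map_pow, ht]; decide +kernel
    calc (t ^ 3) ^ 2 = (t ^ 2) ^ 3 := by rw [← pow_mul, ← pow_mul]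
      _ = 1 := H.exp _ h1

theorem one_ne : (-1 : SpecialLinearGroup (Fin 2) (ZMod 3)) ≠ 1 := by decide +kernel

theorem card_X [Finite X] (H : Hyp X R π) : Nat.card X = 648 := by
  have h1 := Subgroup.card_eq_card_quotient_mul_card_subgroup R
  have h2 : Nat.card (X ⧸ R) = 24 := by
    have e : π.ker = R := by
      ext g; rw [MonoidHom.mem_ker, H.ker]
    have h3 : Nat.card (X ⧸ π.ker) = Nat.card (SpecialLinearGroup (Fin 2) (ZMod 3)) :=
      Nat.card_congr (QuotientGroup.quotientKerEquivOfSurjective π H.surj).toEquiv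
    rw [e, card_sl] at h3
    exact h3
  rw [h1, h2, H.card]

/-- `C_X(R) ≤ R` -/
theorem cent_le [Finite X] (H : Hyp X R π) : centralizer (R : Set X) ≤ R := by
  have hn := H.norm
  have hcX := H.card_X
  -- no involution
  have hinv : ∀ u ∈ centralizer (R : Set X), u ^ 2 = 1 → u = 1 := by
    intro u hu h2
    by_contra h1
    have huR : u ∉ R := fun h => h1 (H.sq_one h h2)
    have hπ : π u ≠ 1 := fun h => huR ((H.ker u).1 h)
    have hπ2 : π u ^ 2 = 1 := by rw [← map_pow, h2, map_one]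
    have hcen : ∀ g : X, Commute g u := by
      intro g
      have hr : u⁻¹ * (g * u * g⁻¹) ∈ R := by
        rw [← H.ker, map_mul, map_inv, map_mul, map_mul, map_inv, sl_invol' (π u) hπ2 hπ (π g)]
        group
      have hD : g * u * g⁻¹ ∈ centralizer (R : Set X) := by
        rw [mem_centralizer_iff]
        intro r hr
        rw [mem_centralizer_iff] at hu
        have h4 := hu (g⁻¹ * r * g) (by simpa using hn.conj_mem r hr g⁻¹)
        have h5 : r * (g * u * g⁻¹) = g * (g⁻¹ * r * g * u) * g⁻¹ := by group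
        rw [h5, h4]; group
      have hrD : u⁻¹ * (g * u * g⁻¹) ∈ centralizer (R : Set X) :=
        mul_mem (inv_mem hu) hD
      set r := u⁻¹ * (g * u * g⁻¹) with hrdef
      have hcomm : r * u = u * r := mem_centralizer_iff.mp hu r hr
      have h6 : g * u * g⁻¹ = u * r := by rw [hrdef]; group
      have h7 : (u * r) ^ 2 = 1 := by
        rw [← h6, conj_pow, h2]; group
      have h8 : r ^ 2 = 1 := by
        have : (u * r) ^ 2 = u ^ 2 * r ^ 2 := by
          rw [pow_two, pow_two, pow_two]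
          calc u * r * (u * r) = u * (r * u) * r := by group
            _ = u * u * (r * r) := by rw [hcomm]; group
        rw [this, h2, one_mul] at h7
        exact h7
      have h9 : r = 1 := H.sq_one hr h8
      rw [h9, mul_one] at h6
      exact mul_inv_eq_iff_eq_mul.mp h6
    have hN : (zpowers u).Normal := by
      constructor
      intro n hn g
      obtain ⟨k, rfl⟩ := mem_zpowers_iff.mp hn
      have : g * u ^ k * g⁻¹ = u ^ k := by
        rw [((hcen g).zpow_right k).eq, mul_inv_cancel_right]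
      rw [this]
      exact hn
    have hP : IsPGroup 2 (zpowers u) := by
      rw [IsPGroup]
      rintro ⟨v, hv⟩
      obtain ⟨k, rfl⟩ := mem_zpowers_iff.mp hv
      refine ⟨1, ?_⟩
      ext
      simp only [pow_one, SubmonoidClass.coe_pow, OneMemClass.coe_one]
      rw [← zpow_natCast, ← _root_.zpow_mul, mul_comm, _root_.zpow_mul]
      simp [h2]
    have := H.core2 _ hN hP
    rw [zpowers_eq_bot] at this
    exact h1 this
  have hodd : ¬ 2 ∣ Nat.card (centralizer (R : Set X)) := by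
    intro h
    obtain ⟨⟨u, hu⟩, hu2⟩ := exists_prime_orderOf_dvd_card' 2 h
    have h3 : orderOf u = 2 := by
      rw [← hu2, ← Subgroup.orderOf_coe]
    have h4 := hinv u hu (by rw [← h3, pow_orderOf_eq_one])
    rw [h4, orderOf_one] at h3
    omega
  have hDn : (centralizer (R : Set X)).Normal := by
    infer_instance
  set N := centralizer (R : Set X) ⊔ R with hN
  have hNn : N.Normal := by
    rw [hN]; infer_instance
  have hRN : R ≤ N := le_sup_right
  have hcN := card_mul_rel hRN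
  rw [H.card, hN, relIndex_sup_right] at hcN
  have hodd2 : ¬ 2 ∣ Nat.card N := by
    intro h
    rw [hN, ← hcN] at h
    rcases (Nat.Prime.dvd_mul Nat.prime_two).1 h with h | h
    · omega
    · exact hodd (h.trans (relIndex_dvd_card R _))
  have hdvd : Nat.card N ∣ 3 ^ 4 := by
    have h1 : Nat.card N ∣ 3 ^ 4 * 2 ^ 3 := by
      have := Subgroup.card_subgroup_dvd_card N
      rw [hcX] at this
      exact this
    refine Nat.Coprime.dvd_of_dvd_mul_right ?_ h1
    exact Nat.Coprime.pow_right 3 ((Nat.coprime_comm.1 ((Nat.Prime.coprime_iff_not_dvd Nat.prime_two).2 hodd2)))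
  have hP : IsPGroup 3 N := by
    obtain ⟨k, -, hk⟩ := (Nat.dvd_prime_pow Nat.prime_three).1 hdvd
    exact IsPGroup.of_card hk
  exact le_sup_left.trans (H.core3 N hNn hP)

theorem hom_mem {x y z : X} (F : Frame x y z) (hx : x ∈ R) (hy : y ∈ R) (hz : z ∈ R) (h : Heis) :
    F.hom h ∈ R := by
  rw [F.hom_apply]
  exact R.mul_mem (R.mul_mem (R.pow_mem hx _) (R.pow_mem hy _)) (R.pow_mem hz _)

theorem hom_surj [Finite X] (H : Hyp X R π) {x y z : X} (F : Frame x y z) (hx : x ∈ R) (hy : y ∈ R)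
    (hz : z ∈ R) {r : X} (hr : r ∈ R) : ∃ h : Heis, F.hom h = r := by
  have h1 : F.hom.range ≤ R := by
    rintro _ ⟨h, rfl⟩
    exact hom_mem F hx hy hz h
  have h2 : Nat.card F.hom.range = 27 := by
    rw [← card_heis]
    exact (Nat.card_congr (MonoidHom.ofInjective F.hom_injective).toEquiv).symm
  have h3 : F.hom.range = R := Subgroup.eq_of_le_of_card_ge h1 (by rw [h2, H.card])
  rw [← h3] at hr
  exact hr

/-- the adapted frame -/
structure Adapted (R : Subgroup X) (π : X →* SpecialLinearGroup (Fin 2) (ZMod 3)) (x y z t : X) :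
    Prop extends Frame x y z where
  xR : x ∈ R
  yR : y ∈ R
  zR : z ∈ R
  zc : ∀ g : X, Commute g z
  πt : π t = -1
  t2 : t ^ 2 = 1
  tx : t * x * t⁻¹ = x⁻¹
  ty : t * y * t⁻¹ = y⁻¹

theorem exists_adapted [Finite X] (H : Hyp X R π) : ∃ x y z t : X, Adapted R π x y z t := by
  obtain ⟨x, y, z, hx, hy, hz, F, hzc⟩ := H.exists_frame
  have hn := H.norm
  have hzX := H.central hz F.z1 hzc
  obtain ⟨t, ht, ht2⟩ := H.exists_t
  obtain ⟨⟨a, c, k1⟩, h1⟩ := H.hom_surj F hx hy hz (hn.conj_mem x hx t)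
  obtain ⟨⟨b, d, k2⟩, h2⟩ := H.hom_surj F hx hy hz (hn.conj_mem y hy t)
  obtain ⟨hdet, hc⟩ := F.conj_hom (hzX t) h1.symm h2.symm
  have htt : ∀ w : X, t * (t * w * t⁻¹) * t⁻¹ = w := by
    intro w
    have : t * (t * w * t⁻¹) * t⁻¹ = t ^ 2 * w * (t ^ 2)⁻¹ := by
      rw [pow_two]; group
    rw [this, ht2]; group
  have e1 := htt x
  rw [← h1, hc] at e1
  have e1' := F.hom_injective (e1.trans F.hom_x.symm)
  have e2 := htt y
  rw [← h2, hc] at e2
  have e2' := F.hom_injective (e2.trans F.hom_y.symm)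
  have m1 := congrArg Heis.a e1'
  have m2 := congrArg Heis.b e1'
  have m3 := congrArg Heis.a e2'
  have m4 := congrArg Heis.b e2'
  simp only at m1 m2 m3 m4
  rcases mat_invol a b c d hdet m1 m3 m2 m4 with ⟨rfl, rfl, rfl, rfl⟩ | ⟨rfl, rfl, rfl, rfl⟩
  · exfalso
    have n1 := congrArg Heis.k e1'
    have n2 := congrArg Heis.k e2'
    simp only [one_mul, zero_mul, add_zero] at n1 n2
    have hk1 : k1 = 0 := by
      have : ∀ k : ZMod 3, k + k = 0 → k = 0 := by decide
      exact this _ n1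
    have hk2 : k2 = 0 := by
      have : ∀ k : ZMod 3, k + k = 0 → k = 0 := by decide
      apply this
      simpa using n2
    subst hk1 hk2
    have htD : t ∈ centralizer (R : Set X) := by
      rw [mem_centralizer_iff]
      intro r hr
      obtain ⟨h, rfl⟩ := H.hom_surj F hx hy hz hr
      have := hc h
      simp only [one_mul, zero_mul, add_zero, zero_add, mul_zero] at this
      exact (mul_inv_eq_iff_eq_mul.mp this).symm
    have := (H.ker t).2 (H.cent_le htD)
    rw [ht] at this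
    exact one_ne this
  · refine ⟨F.hom ⟨1, 0, k1⟩, F.hom ⟨0, 1, k2⟩, z, t, ⟨⟨H.exp _ (hom_mem F hx hy hz _),
      H.exp _ (hom_mem F hx hy hz _), F.z3, ?_, hzX _, hzX _, F.z1⟩, hom_mem F hx hy hz _,
      hom_mem F hx hy hz _, hz, hzX, ht, ht2, ?_, ?_⟩⟩
    · have hz1 : F.hom ⟨0, 0, -1⟩ = z⁻¹ := by
        rw [F.hom_z, pw_neg_one F.z3]
      rw [← hz1, ← map_mul, ← map_mul, ← map_mul]
      congr 1
      ext
      · simp
      · simp
      · simp only [mul_k, mul_a, mul_b]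
        have h3 : (3 : ZMod 3) = 0 := by decide
        linear_combination (1 : ZMod 3) * h3
    · rw [hc, ← map_inv]
      congr 1
      ext
      · simp
      · simp
      · simp only [inv_k]
        have h3 : (3 : ZMod 3) = 0 := by decide
        linear_combination k1 * h3
    · rw [hc, ← map_inv]
      congr 1
      ext
      · simp
      · simp
      · simp only [inv_k]
        have h3 : (3 : ZMod 3) = 0 := by decide
        linear_combination k2 * h3

end Hyp

namespace Hyp.Adapted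

open Hyp

variable {R : Subgroup X} {π : X →* SpecialLinearGroup (Fin 2) (ZMod 3)} {x y z t : X}

theorem t_hom (A : Adapted R π x y z t) (h : Heis) :
    t * A.toFrame.hom h * t⁻¹ = A.toFrame.hom ⟨-h.a, -h.b, h.k⟩ := by
  have h1 : t * x * t⁻¹ = A.toFrame.hom ⟨-1, 0, 0⟩ := by
    rw [A.tx]
    have : (⟨-1, 0, 0⟩ : Heis) = (⟨1, 0, 0⟩ : Heis)⁻¹ := by ext <;> simp
    rw [this, map_inv, A.toFrame.hom_x]
  have h2 : t * y * t⁻¹ = A.toFrame.hom ⟨0, -1, 0⟩ := by
    rw [A.ty]
    have : (⟨0, -1, 0⟩ : Heis) = (⟨0, 1, 0⟩ : Heis)⁻¹ := by ext <;> simp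
    rw [this, map_inv, A.toFrame.hom_y]
  rw [(A.toFrame.conj_hom (A.zc t) h1 h2).2]
  congr 1
  ext <;> simp

theorem t_comm (A : Adapted R π x y z t) {h : Heis} (hc : Commute t (A.toFrame.hom h)) :
    h.a = 0 ∧ h.b = 0 := by
  have h1 := A.t_hom h
  rw [hc.eq, mul_inv_cancel_right] at h1
  have h2 := A.toFrame.hom_injective h1
  have key : ∀ a : ZMod 3, a = -a → a = 0 := by decide
  exact ⟨key _ (congrArg Heis.a h2), key _ (congrArg Heis.b h2)⟩

/-- every coset of `R` contains an element commuting with `t` -/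
theorem exists_fix (H : Hyp X R π) (A : Adapted R π x y z t) (g : X) :
    ∃ r ∈ R, t * g * t⁻¹ = g * r ∧ Commute t (g * r ^ 2) := by
  have hr : g⁻¹ * (t * g * t⁻¹) ∈ R := by
    rw [← H.ker, map_mul, map_mul, map_mul, map_inv, map_inv, A.πt]
    simp
  refine ⟨g⁻¹ * (t * g * t⁻¹), hr, by group, ?_⟩
  set r := g⁻¹ * (t * g * t⁻¹) with hrdef
  have h1 : t * g * t⁻¹ = g * r := by rw [hrdef]; group
  have h2 : t * (g * r) * t⁻¹ = g := by
    rw [← h1]
    have : t * (t * g * t⁻¹) * t⁻¹ = t ^ 2 * g * (t ^ 2)⁻¹ := by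
      rw [pow_two]; group
    rw [this, A.t2]; group
  have h3 : t * r * t⁻¹ = r⁻¹ := by
    have : t * (g * r) * t⁻¹ = (t * g * t⁻¹) * (t * r * t⁻¹) := by group
    rw [this, h1] at h2
    calc t * r * t⁻¹ = (g * r)⁻¹ * (g * r * (t * r * t⁻¹)) := by group
      _ = r⁻¹ := by rw [h2]; group
  have h4 : t * (g * r ^ 2) * t⁻¹ = g * r ^ 2 := by
    have e : t * (g * r ^ 2) * t⁻¹ = (t * g * t⁻¹) * (t * r * t⁻¹) ^ 2 := by
      rw [conj_pow]; group
    rw [e, h1, h3]
    have h5 : r ^ 3 = 1 := H.exp r hr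
    calc g * r * r⁻¹ ^ 2 = g * r ^ 2 * (r ^ 3)⁻¹ := by group
      _ = g * r ^ 2 := by rw [h5]; group
  exact mul_inv_eq_iff_eq_mul.mp h4

theorem exists_s [Finite X] (H : Hyp X R π) (A : Adapted R π x y z t)
    (hE : ∃ E : Subgroup X, IsMulCommutative E ∧ (∀ a ∈ E, a ^ 3 = 1) ∧ Nat.card E = 27) :
    ∃ s : X, s ∉ R ∧ s ^ 3 = 1 ∧ Commute t s := by
  obtain ⟨E, hEc, hE3, hE27⟩ := hE
  have hEcomm : ∀ a ∈ E, ∀ b ∈ E, a * b = b * a := by
    intro a ha b hb
    have := hEc.is_comm.comm (⟨a, ha⟩ : E) ⟨b, hb⟩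
    exact congrArg Subtype.val this
  -- `E` is not inside `R`
  have hER : ¬ E ≤ R := by
    intro h
    have h1 : E = R := Subgroup.eq_of_le_of_card_ge h (by rw [hE27, H.card])
    obtain ⟨u, hu, v, hv, huv⟩ := H.nab
    rw [← h1] at hu hv
    exact huv (hEcomm u hu v hv)
  obtain ⟨s, hsE, hsR⟩ := Set.not_subset.1 hER
  -- the intersection with `R` is large
  have hcard : 9 ≤ Nat.card ↥(E ⊓ R) := by
    have hker : (π.ker).relIndex E = Nat.card (E.map π) := relIndex_ker E π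
    have hk : π.ker = R := by
      ext g; rw [MonoidHom.mem_ker, H.ker]
    have h3 := card_mul_rel (inf_le_left : E ⊓ R ≤ E)
    rw [inf_relIndex_left, ← hk, hker, hE27, hk] at h3
    have h4 : Nat.card (E.map π) ∣ 24 := by
      rw [← card_sl]; exact Subgroup.card_subgroup_dvd_card _
    have h5 : Nat.card (E.map π) ∣ 27 := ⟨_, by rw [← h3, mul_comm]⟩
    have h6 : Nat.card (E.map π) ∣ 3 := by
      have := Nat.dvd_gcd h4 h5
      simpa using this
    have h7 := Nat.le_of_dvd (by norm_num) h6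
    nlinarith
  -- a noncentral element
  have hf : ∃ h : Heis, A.toFrame.hom h ∈ E ∧ (h.a ≠ 0 ∨ h.b ≠ 0) := by
    by_contra hcon
    push Not at hcon
    have hle : E ⊓ R ≤ zpowers z := by
      intro r hr
      obtain ⟨hr1, hr2⟩ := mem_inf.1 hr
      obtain ⟨h, rfl⟩ := H.hom_surj A.toFrame A.xR A.yR A.zR hr2
      obtain ⟨ha, hb⟩ := hcon h hr1
      have : h = ⟨0, 0, h.k⟩ := by ext; exact ha; exact hb; rfl
      rw [this, A.toFrame.hom_z]
      exact pow_mem (mem_zpowers z) _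
    have h1 := Subgroup.card_le_of_le hle
    have h2 : Nat.card (zpowers z) = 3 := by
      rw [Nat.card_zpowers]
      exact orderOf_eq_prime A.z3 A.z1
    omega
  obtain ⟨⟨p, q, k⟩, hfE, hpq⟩ := hf
  simp only at hpq
  obtain ⟨r, hr, h1, h2⟩ := exists_fix H A s
  refine ⟨s * r ^ 2, ?_, ?_, h2⟩
  · intro h
    exact hsR ((Subgroup.mul_mem_cancel_right R (R.pow_mem hr 2)).1 h)
  · -- `r` commutes with `s`
    have hsf : Commute s (A.toFrame.hom ⟨p, q, k⟩) := hEcomm s hsE _ hfE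
    have hsz : Commute s z := A.zc s
    obtain ⟨h, rfl⟩ := H.hom_surj A.toFrame A.xR A.yR A.zR hr
    -- t s t⁻¹ commutes with the image of f
    have hc1 : Commute (s * A.toFrame.hom h) (A.toFrame.hom ⟨-p, -q, k⟩) := by
      have e := A.t_hom ⟨p, q, k⟩
      simp only at e
      rw [← h1, ← e]
      show t * s * t⁻¹ * (t * A.toFrame.hom ⟨p, q, k⟩ * t⁻¹) =
        t * A.toFrame.hom ⟨p, q, k⟩ * t⁻¹ * (t * s * t⁻¹)
      calc t * s * t⁻¹ * (t * A.toFrame.hom ⟨p, q, k⟩ * t⁻¹)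
          = t * (s * A.toFrame.hom ⟨p, q, k⟩) * t⁻¹ := by group
        _ = _ := by rw [hsf.eq]; group
    have hsplit : A.toFrame.hom ⟨-p, -q, k⟩ = (A.toFrame.hom ⟨p, q, k⟩)⁻¹ * z ^ (k + k).val := by
      rw [← map_inv, ← A.toFrame.hom_z, ← map_mul]
      congr 1
      ext <;> simp
    have hsf' : Commute s (A.toFrame.hom ⟨-p, -q, k⟩) := by
      rw [hsplit]
      exact hsf.inv_right.mul_right (hsz.pow_right _)
    have hc2 : Commute (A.toFrame.hom h) (A.toFrame.hom ⟨-p, -q, k⟩) := by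
      have h3 : A.toFrame.hom h = s⁻¹ * (s * A.toFrame.hom h) := by group
      rw [h3]
      exact hsf'.inv_left.mul_left hc1
    have h4 : h * ⟨-p, -q, k⟩ = ⟨-p, -q, k⟩ * h := by
      apply A.toFrame.hom_injective
      rw [map_mul, map_mul]
      exact hc2.eq
    have h5 := congrArg Heis.k h4
    simp only [mul_k] at h5
    have h6 : p * h.b = q * h.a := by
      have h3 : (3 : ZMod 3) = 0 := by decide
      linear_combination h5 + (p * h.b - q * h.a) * h3
    have key : ∀ p q a b : ZMod 3, (p ≠ 0 ∨ q ≠ 0) → p * b = q * a → ∃ m, a = m * p ∧ b = m * q := by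
      decide
    obtain ⟨m, hm1, hm2⟩ := key p q h.a h.b hpq h6
    have h7 : A.toFrame.hom h = (A.toFrame.hom ⟨p, q, k⟩) ^ m.val * z ^ (h.k - m * k).val := by
      rw [← map_pow, heis_pw, ← A.toFrame.hom_z, ← map_mul]
      congr 1
      ext
      · simp [hm1]
      · simp [hm2]
      · simp
    have h8 : Commute s (A.toFrame.hom h) := by
      rw [h7]
      exact (hsf.pow_right _).mul_right (hsz.pow_right _)
    rw [(h8.pow_right 2).mul_pow, hE3 s hsE, one_mul, ← pow_mul, mul_comm, pow_mul, H.exp _ hr,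
      one_pow]

end Hyp.Adapted

end Cfsg.Agent.H350.Shape
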